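import Mathlib

/-!
# `L₃(3)` (helper602): two facts on `SL₃(3)`

* `exists_comm` : an involution of `SL₃(3)` commutes with an element of order `3`;
* `not_two` : no involution of `L₃(3)` has a `2`-group as centraliser;
* `exists_emb` : `3 ^ 2 ≤ L₃(3)`.
-/

set_option autoImplicit false

namespace Cfsg.Agent.H602.EPX.L33

open Matrix

variable {F : Type*} [Field F] [Fintype F]

theorem three_eq_zero (hF : Fintype.card F = 3) : (3 : F) = 0 := by
  have h := FiniteField.cast_card_eq_zero F
  rw [hF] at h
  exact_mod_cast h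

/-- the centre of `SL₃(3)` is trivial -/
theorem center_eq_bot (hF : Fintype.card F = 3) : Subgroup.center (SpecialLinearGroup (Fin 3) F) = ⊥ := by
  rw [Subgroup.eq_bot_iff_forall]
  intro A hA
  rw [Matrix.SpecialLinearGroup.mem_center_iff] at hA
  obtain ⟨r, hr, hA⟩ := hA
  have h1 : r ^ 3 = r := by
    have := FiniteField.pow_card r
    rwa [hF] at this
  have h2 : r = 1 := by
    rw [Fintype.card_fin] at hr
    rw [← h1, hr]
  apply Subtype.ext
  rw [← hA, h2]
  simp

omit [Fintype F] in
theorem exists_comm_mat (h3 : (3 : F) = 0) (S : Matrix (Fin 3) (Fin 3) F) (hS : S * S = 1) (hd : S.det = 1)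
    (hne : S ≠ 1) : ∃ N : Matrix (Fin 3) (Fin 3) F, N ≠ 0 ∧ N * N = 0 ∧ S * N = N * S ∧ (1 + N).det = 1 := by
  classical
  obtain ⟨A, hA⟩ : ∃ A, A = S - 1 := ⟨_, rfl⟩
  have hSA : S = A + 1 := by rw [hA]; abel
  have hAA : A * A = A := by
    have e1 : A * A = S * S - S - S + 1 := by rw [hA]; noncomm_ring
    rw [e1, hS, hA]
    ext i j
    simp only [Matrix.add_apply, Matrix.sub_apply]
    linear_combination ((1 : Matrix (Fin 3) (Fin 3) F) i j - S i j) * h3
  have hA0 : A ≠ 0 := fun h => hne (by rw [hSA, h, zero_add])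
  obtain ⟨i0, j, hij⟩ : ∃ i j, A i j ≠ 0 := by
    by_contra hcon
    push Not at hcon
    exact hA0 (by ext i j; exact hcon i j)
  obtain ⟨v, hv⟩ : ∃ v : Fin 3 → F, v = fun i => A i j := ⟨_, rfl⟩
  have hvi : v i0 ≠ 0 := by rw [hv]; exact hij
  have hAv : ∀ i, ∑ k, A i k * v k = v i := by
    intro i
    have := congrFun (congrFun hAA i) j
    rw [Matrix.mul_apply] at this
    rw [hv]
    exact this
  by_cases hc : ∃ i k, v i0 * A i k - v i * A i0 k ≠ 0
  · obtain ⟨i, k0, hik⟩ := hc
    obtain ⟨φ, hφ⟩ : ∃ φ : Fin 3 → F, φ = fun k => v i0 * A i k - v i * A i0 k := ⟨_, rfl⟩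
    have hφv : ∑ k, φ k * v k = 0 := by
      have e1 : ∑ k, φ k * v k = v i0 * ∑ k, A i k * v k - v i * ∑ k, A i0 k * v k := by
        rw [Finset.mul_sum, Finset.mul_sum, ← Finset.sum_sub_distrib]
        apply Finset.sum_congr rfl
        intro k _
        rw [hφ]
        ring
      rw [e1, hAv, hAv]
      ring
    have hφA : ∀ k, ∑ l, φ l * A l k = φ k := by
      intro k
      have e1 : ∑ l, φ l * A l k = v i0 * ∑ l, A i l * A l k - v i * ∑ l, A i0 l * A l k := by
        rw [Finset.mul_sum, Finset.mul_sum, ← Finset.sum_sub_distrib]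
        apply Finset.sum_congr rfl
        intro l _
        rw [hφ]
        ring
      rw [e1, ← Matrix.mul_apply, ← Matrix.mul_apply, hAA, hφ]
    refine ⟨Matrix.of fun a b => v a * φ b, ?_, ?_, ?_, ?_⟩
    · intro h0
      have := congrFun (congrFun h0 i0) k0
      rw [Matrix.of_apply, Matrix.zero_apply, mul_eq_zero] at this
      rcases this with h | h
      · exact hvi h
      · rw [hφ] at h
        exact hik h
    · ext a b
      rw [Matrix.mul_apply, Matrix.zero_apply]
      have e1 : ∑ k, Matrix.of (fun a b => v a * φ b) a k * Matrix.of (fun a b => v a * φ b) k b =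
          v a * (∑ k, φ k * v k) * φ b := by
        rw [Finset.mul_sum, Finset.sum_mul]
        apply Finset.sum_congr rfl
        intro k _
        simp only [Matrix.of_apply]
        ring
      rw [e1, hφv]
      ring
    · rw [hSA, add_mul, mul_add, one_mul, mul_one]
      congr 1
      ext a b
      rw [Matrix.mul_apply, Matrix.mul_apply]
      have e1 : ∑ k, A a k * Matrix.of (fun a b => v a * φ b) k b = (∑ k, A a k * v k) * φ b := by
        rw [Finset.sum_mul]
        apply Finset.sum_congr rfl
        intro k _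
        simp only [Matrix.of_apply]
        ring
      have e2 : ∑ k, Matrix.of (fun a b => v a * φ b) a k * A k b = v a * ∑ k, φ k * A k b := by
        rw [Finset.mul_sum]
        apply Finset.sum_congr rfl
        intro k _
        simp only [Matrix.of_apply]
        ring
      rw [e1, e2, hAv, hφA]
    · rw [Matrix.det_fin_three]
      simp only [Fin.sum_univ_three] at hφv
      simp
      linear_combination hφv
  · exfalso
    push Not at hc
    have h1 : ∀ i k, A i k = v i * (A i0 k / v i0) := by
      intro i k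
      field_simp
      linear_combination hc i k
    obtain ⟨ψ, hψ⟩ : ∃ ψ : Fin 3 → F, ψ = fun k => A i0 k / v i0 := ⟨_, rfl⟩
    have h2 : ∀ i k, A i k = v i * ψ k := by
      intro i k
      rw [hψ]
      exact h1 i k
    have h3' : ∑ k, ψ k * v k = 0 := by
      have e1 : S.det = 1 + ∑ k, ψ k * v k := by
        rw [hSA, Matrix.det_fin_three]
        simp only [Matrix.add_apply, h2, Fin.sum_univ_three]
        simp
        ring
      rw [hd] at e1
      linear_combination -e1
    have h4 := hAv i0
    have h5 : ∑ k, A i0 k * v k = v i0 * ∑ k, ψ k * v k := by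
      rw [Finset.mul_sum]
      apply Finset.sum_congr rfl
      intro k _
      rw [h2]
      ring
    rw [h5, h3', mul_zero] at h4
    exact hvi h4.symm

/-- an involution of `SL₃(3)` commutes with an element of order `3` -/
theorem exists_comm (hF : Fintype.card F = 3) (s : SpecialLinearGroup (Fin 3) F) (hs : s * s = 1) (h1 : s ≠ 1) :
    ∃ τ : SpecialLinearGroup (Fin 3) F, τ ≠ 1 ∧ τ ^ 3 = 1 ∧ s * τ = τ * s := by
  have h3 := three_eq_zero hF
  obtain ⟨N, hN0, hNN, hSN, hdet⟩ := exists_comm_mat h3 s.1 (congrArg Subtype.val hs) s.2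
    (fun h => h1 (Subtype.ext h))
  obtain ⟨τ, hτ⟩ : ∃ τ : SpecialLinearGroup (Fin 3) F, τ.1 = 1 + N := ⟨⟨1 + N, hdet⟩, rfl⟩
  refine ⟨τ, ?_, ?_, ?_⟩
  · intro h
    rw [h] at hτ
    apply hN0
    have h4 : (1 : Matrix (Fin 3) (Fin 3) F) = 1 + N := hτ
    exact (left_eq_add.1 h4)
  · apply Subtype.ext
    have e1 : (1 + N) ^ 3 = 1 + (N + N + N) + (N * N + N * N + N * N) + N * N * N := by noncomm_ring
    have e2 : N + N + N = 0 := by
      ext i j
      simp only [Matrix.add_apply, Matrix.zero_apply]
      linear_combination N i j * h3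
    have e3 : (τ ^ 3).1 = τ.1 ^ 3 := Matrix.SpecialLinearGroup.coe_pow τ 3
    rw [e3, hτ, e1, e2, hNN]
    simp
  · apply Subtype.ext
    have e3 : (s * τ).1 = s.1 * τ.1 := Matrix.SpecialLinearGroup.coe_mul s τ
    have e4 : (τ * s).1 = τ.1 * s.1 := Matrix.SpecialLinearGroup.coe_mul τ s
    rw [e3, e4, hτ, mul_add, add_mul, mul_one, one_mul, hSN]

/-- the quotient map `SL₃(3) → L₃(3)` is injective -/
theorem mk_injective (hF : Fintype.card F = 3) :
    Function.Injective (QuotientGroup.mk' (Subgroup.center (SpecialLinearGroup (Fin 3) F))) := by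
  rw [← MonoidHom.ker_eq_bot_iff, QuotientGroup.ker_mk', center_eq_bot hF]

variable {T : Type*} [Group T]

/-- no involution of `L₃(3)` has a `2`-group as centraliser -/
theorem not_two (hF : Fintype.card F = 3) (e : T ≃* ProjectiveSpecialLinearGroup (Fin 3) F) (t : T)
    (ht : orderOf t = 2) : ¬ IsPGroup 2 (Subgroup.centralizer {t} : Subgroup T) := by
  intro hP
  have hinj := mk_injective hF
  obtain ⟨s, hs⟩ := QuotientGroup.mk'_surjective (Subgroup.center (SpecialLinearGroup (Fin 3) F)) (e t)
  have ht2 : t * t = 1 := by rw [← pow_two, ← ht, pow_orderOf_eq_one]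
  have ht1 : t ≠ 1 := by
    intro h
    rw [h, orderOf_one] at ht
    norm_num at ht
  have h1 : s * s = 1 := by
    apply hinj
    rw [map_mul, hs, map_one, ← map_mul, ht2, map_one]
  have h2 : s ≠ 1 := by
    intro h
    apply ht1
    apply e.injective
    rw [← hs, h, map_one, map_one]
  obtain ⟨τ, hτ1, hτ3, hτc⟩ := exists_comm hF s h1 h2
  obtain ⟨y, hy⟩ : ∃ y : T, e y = QuotientGroup.mk' _ τ := e.surjective _
  have hyc : y ∈ Subgroup.centralizer {t} := by
    rw [Subgroup.mem_centralizer_singleton_iff]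
    apply e.injective
    rw [map_mul, map_mul, hy, ← hs, ← map_mul, ← map_mul, hτc]
  have hy3 : y ^ 3 = 1 := by
    apply e.injective
    rw [map_pow, hy, ← map_pow, hτ3, map_one, map_one]
  have hy1 : y ≠ 1 := by
    intro h
    apply hτ1
    apply hinj
    rw [← hy, h, map_one, map_one]
  obtain ⟨k, hk⟩ := hP ⟨y, hyc⟩
  have hk' : y ^ 2 ^ k = 1 := congrArg Subtype.val hk
  have h5 : orderOf y = 3 := orderOf_eq_prime hy3 hy1
  have h6 : 3 ∣ 2 ^ k := by rw [← h5]; exact orderOf_dvd_of_pow_eq_one hk'
  have h7 := Nat.prime_three.dvd_of_dvd_pow h6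
  norm_num at h7

/-- the element `1 + x E₁₂ + y E₁₃` -/
def el (F : Type*) [Field F] (x y : F) : SpecialLinearGroup (Fin 3) F :=
  ⟨!![1, x, y; 0, 1, 0; 0, 0, 1], by rw [Matrix.det_fin_three]; simp⟩

theorem el_val (F : Type*) [Field F] (x y : F) : (el F x y).1 = !![1, x, y; 0, 1, 0; 0, 0, 1] := rfl

theorem el_mul (F : Type*) [Field F] (x y x' y' : F) : el F x y * el F x' y' = el F (x + x') (y + y') := by
  apply Subtype.ext
  have e3 : (el F x y * el F x' y').1 = (el F x y).1 * (el F x' y').1 := Matrix.SpecialLinearGroup.coe_mul _ _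
  rw [e3, el_val, el_val, el_val]
  ext i j
  fin_cases i <;> fin_cases j <;> simp [Matrix.mul_apply, Fin.sum_univ_three, add_comm]

theorem el_zero (F : Type*) [Field F] : el F 0 0 = 1 := by
  apply Subtype.ext
  rw [el_val]
  ext i j
  fin_cases i <;> fin_cases j <;> simp

/-- the elementary abelian subgroup `3 ^ 2` -/
def toSL (F : Type*) [Field F] : Multiplicative (F × F) →* SpecialLinearGroup (Fin 3) F where
  toFun a := el F (Multiplicative.toAdd a).1 (Multiplicative.toAdd a).2
  map_one' := el_zero F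
  map_mul' a b := (el_mul F _ _ _ _).symm

theorem toSL_injective (F : Type*) [Field F] : Function.Injective (toSL F) := by
  intro a b h
  have h1 : (el F (Multiplicative.toAdd a).1 (Multiplicative.toAdd a).2).1 =
    (el F (Multiplicative.toAdd b).1 (Multiplicative.toAdd b).2).1 := congrArg Subtype.val h
  rw [el_val, el_val] at h1
  have h2 := congrFun (congrFun h1 0) 1
  have h3 := congrFun (congrFun h1 0) 2
  have h4 : (Multiplicative.toAdd a).1 = (Multiplicative.toAdd b).1 := by simpa using h2
  have h5 : (Multiplicative.toAdd a).2 = (Multiplicative.toAdd b).2 := by simpa using h3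
  exact Multiplicative.toAdd.injective (Prod.ext h4 h5)

/-- `3 ^ 2 ≤ L₃(3)` -/
theorem exists_emb {F : Type} [Field F] [Fintype F] (hF : Fintype.card F = 3)
    (e : T ≃* ProjectiveSpecialLinearGroup (Fin 3) F) :
    ∃ (E : Type) (_ : Group E) (f : E →* T), Nat.card E = 9 ∧ (∀ x : E, x ^ 3 = 1) ∧ Function.Injective f := by
  refine ⟨Multiplicative (F × F), inferInstance,
    e.symm.toMonoidHom.comp ((QuotientGroup.mk' _).comp (toSL F)), ?_, ?_, ?_⟩
  · rw [Nat.card_congr Multiplicative.toAdd, Nat.card_prod, Nat.card_eq_fintype_card, hF]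
  · intro x
    apply Multiplicative.toAdd.injective
    have h3 := three_eq_zero hF
    rw [toAdd_pow, toAdd_one]
    have h4 : ∀ c : F, 3 • c = 0 := by
      intro c
      rw [nsmul_eq_mul]
      push_cast
      rw [h3, zero_mul]
    exact Prod.ext (h4 _) (h4 _)
  · exact e.symm.injective.comp ((mk_injective hF).comp (toSL_injective F))

end Cfsg.Agent.H602.EPX.L33
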